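import Cfsg.Agent.BMod.Frob

/-!
Symmetric local algebras (`SymLoc`): if the centre has dimension at most four the algebra is
commutative (`SymLoc.comm_of_le_four`).  The corner algebra `Cor` of a block with one point is
symmetric local, so `l(B) = 1` and `k(B) ≤ 4` give `k(B) = p ^ d` (`card_eq_of_le_four`).
-/

set_option linter.unusedSectionVars false

namespace Cfsg.Agent.BMod

open MonoidAlgebra Transfer Block Cfsg.Agent.Char CharDeep Module Submodule
open scoped ComplexConjugate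

section gen
variable {F : Type*} [Field F] {A : Type*} [Ring A] [Algebra F A] [Module.Finite F A]

/-- `A` is a split local algebra with radical `J` and symmetrizing form `l`. -/
structure SymLoc (J : Submodule F A) (l : A →ₗ[F] F) : Prop where
  loc : ∀ a, ∃ c : F, a - c • 1 ∈ J
  mul : J * J ≤ J
  nil : ∃ n, J ^ n = ⊥
  symm : ∀ a b, l (a * b) = l (b * a)
  nd : ∀ a, (∀ b, l (a * b) = 0) → a = 0

variable (F A) in
/-- The commutator space. -/
def cs : Submodule F A := span F {x | ∃ a b, a * b - b * a = x}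

variable {J W V : Submodule F A} {l : A →ₗ[F] F} {a b x y : A}

theorem exists_step (h : W ≤ V) :
    ∃ a ∈ V, V ≤ span F {a} ⊔ W ∨ finrank F W + 1 ≤ finrank F ↥(span F {a} ⊔ W) := by
  by_cases h1 : V ≤ W
  · exact ⟨0, zero_mem _, .inl (h1.trans le_sup_right)⟩
  · obtain ⟨a, ha, ha'⟩ := SetLike.not_le_iff_exists.1 h1
    exact ⟨a, ha, .inr (finrank_lt_finrank_of_lt (lt_of_le_of_ne le_sup_right fun h2 =>
      ha' (h2 ▸ mem_sup_left (mem_span_singleton_self a))))⟩

theorem exists_span_one (h : W ≤ V) (h1 : finrank F V ≤ finrank F W + 1) :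
    ∃ a ∈ V, V ≤ span F {a} ⊔ W := by
  obtain ⟨a, ha, h2 | h2⟩ := exists_step h
  · exact ⟨a, ha, h2⟩
  · exact ⟨a, ha, (eq_of_le_of_finrank_le (sup_le ((span_singleton_le_iff_mem _ _).2 ha) h)
      (h1.trans h2)).ge⟩

theorem exists_span_two (h : W ≤ V) (h1 : finrank F V ≤ finrank F W + 2) :
    ∃ a ∈ V, ∃ b ∈ V, V ≤ span F {a} ⊔ (span F {b} ⊔ W) := by
  obtain ⟨b, hb, h2 | h2⟩ := exists_step h
  · exact ⟨0, zero_mem _, b, hb, h2.trans le_sup_right⟩
  · obtain ⟨a, ha, h3⟩ := exists_span_one (sup_le ((span_singleton_le_iff_mem _ _).2 hb) h)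
      (by omega)
    exact ⟨a, ha, b, hb, h3⟩

theorem SymLoc.top_eq (h : SymLoc J l) : (⊤ : Submodule F A) = 1 ⊔ J :=
  (eq_top_iff.2 fun a _ => by
    obtain ⟨c, hc⟩ := h.loc a
    exact mem_sup.2 ⟨c • 1, mem_one.2 ⟨c, Algebra.algebraMap_eq_smul_one c⟩, _, hc, by simp⟩).symm

theorem SymLoc.pow_succ_le (h : SymLoc J l) (n : ℕ) : J ^ (n + 2) ≤ J ^ (n + 1) := by
  induction n with
  | zero => simpa [pow_two] using h.mul
  | succ n ih => exact mul_le_mul_left ih J

theorem SymLoc.pow_le (h : SymLoc J l) (n : ℕ) : J ^ (n + 1) ≤ J := by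
  induction n with
  | zero => simp
  | succ n ih => exact (h.pow_succ_le n).trans ih

theorem SymLoc.top_mul (h : SymLoc J l) (n : ℕ) : ⊤ * J ^ (n + 1) ≤ J ^ (n + 1) := by
  rw [h.top_eq, Submodule.sup_mul, one_mul, ← pow_succ']
  exact sup_le le_rfl (h.pow_succ_le n)

theorem SymLoc.mul_top (h : SymLoc J l) (n : ℕ) : J ^ (n + 1) * ⊤ ≤ J ^ (n + 1) := by
  rw [h.top_eq, Submodule.mul_sup, mul_one, ← pow_succ]
  exact sup_le le_rfl (h.pow_succ_le n)

theorem SymLoc.le_of_step (h : SymLoc J l) (k : ℕ) (hW : ∀ n, k ≤ n → J ^ n ≤ W ⊔ J ^ (n + 1)) :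
    J ^ k ≤ W := by
  obtain ⟨N, hN⟩ := h.nil
  have : ∀ m, J ^ k ≤ W ⊔ J ^ (k + m) := fun m => by
    induction m with
    | zero => exact le_sup_right
    | succ m ih => exact ih.trans (sup_le le_sup_left (hW _ (by omega)))
  simpa [pow_add, hN] using this N

theorem SymLoc.eq_bot (h : SymLoc J l) (k : ℕ) (hk : J ^ k ≤ J ^ (k + 1)) : J ^ k = ⊥ :=
  le_bot_iff.1 (h.le_of_step k fun n hn => by
    obtain ⟨m, rfl⟩ := Nat.exists_eq_add_of_le hn
    rw [bot_sup_eq, add_right_comm, pow_add, pow_add _ (k + 1)]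
    gcongr)

theorem SymLoc.isNilpotent (h : SymLoc J l) (hx : x ∈ J) : IsNilpotent x :=
  let ⟨n, hn⟩ := h.nil
  ⟨n, (mem_bot F).1 (hn ▸ pow_mem_pow J hx n)⟩

theorem SymLoc.finrank_eq [Nontrivial A] (h : SymLoc J l) : finrank F A = finrank F J + 1 := by
  rw [← finrank_top, h.top_eq, one_eq_span, sup_comm, finrank_sup_span_singleton fun h1 =>
    not_isNilpotent_one (h.isNilpotent h1)]

theorem commutator_mem_cs (a b : A) : a * b - b * a ∈ cs F A := subset_span ⟨a, b, rfl⟩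

theorem comm_of_cs (h : cs F A = ⊥) (a b : A) : a * b = b * a :=
  sub_eq_zero.1 ((mem_bot F).1 (h ▸ commutator_mem_cs a b))

theorem SymLoc.cs_le (h : SymLoc J l) (hW : ∀ x ∈ J, ∀ y ∈ J, x * y - y * x ∈ W) : cs F A ≤ W :=
  span_le.2 (by
    rintro _ ⟨a, b, rfl⟩
    obtain ⟨c, hc⟩ := h.loc a
    obtain ⟨d, hd⟩ := h.loc b
    have : (a - c • 1) * (b - d • 1) - (b - d • 1) * (a - c • 1) = a * b - b * a := ?_
    · exact this ▸ hW _ hc _ hd
    simp only [mul_sub, sub_mul, mul_smul_comm, smul_mul_assoc, mul_one, one_mul, smul_sub,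
      smul_smul, mul_comm c d]
    abel)

theorem SymLoc.cs_le_sq (h : SymLoc J l) : cs F A ≤ J ^ 2 :=
  h.cs_le fun _ hx _ hy => pow_two J ▸ sub_mem (mul_mem_mul hx hy) (mul_mem_mul hy hx)

theorem SymLoc.map_cs (h : SymLoc J l) (hx : x ∈ cs F A) : l x = 0 :=
  (span_le.2 (by rintro _ ⟨a, b, rfl⟩; simp [h.symm a b]) : cs F A ≤ LinearMap.ker l) hx

/-- The symmetric bilinear form. -/
def bf (l : A →ₗ[F] F) : LinearMap.BilinForm F A := (LinearMap.mul F A).compr₂ l

theorem mem_orth : x ∈ (bf l).orthogonal W ↔ ∀ w ∈ W, l (w * x) = 0 := Iff.rfl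

theorem SymLoc.finrank_orth (h : SymLoc J l) (W : Submodule F A) :
    finrank F ((bf l).orthogonal W) + finrank F W = finrank F A := by
  rw [LinearMap.BilinForm.finrank_orthogonal (B := bf l) ⟨h.nd, fun a ha => h.nd a fun b =>
    (h.symm a b).trans (ha b)⟩, Nat.sub_add_cancel (finrank_le W)]

theorem SymLoc.orth_cs (h : SymLoc J l) :
    (bf l).orthogonal (cs F A) = (Subalgebra.center F A).toSubmodule := by
  ext x
  rw [mem_orth, Subalgebra.mem_toSubmodule, Subalgebra.mem_center_iff]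
  refine ⟨fun H b => sub_eq_zero.1 (h.nd _ fun a => ?_), fun H w hw => ?_⟩
  · rw [← H _ (commutator_mem_cs a b), sub_mul, sub_mul, map_sub, map_sub, h.symm _ a,
      mul_assoc x, h.symm x, mul_assoc a]
  · refine (span_le.2 ?_ : cs F A ≤ LinearMap.ker (l ∘ₗ LinearMap.mulRight F x)) hw
    rintro _ ⟨a, b, rfl⟩
    change l ((a * b - b * a) * x) = 0
    rw [sub_mul, map_sub, mul_assoc b, h.symm b, mul_assoc, mul_assoc, H b, sub_self]

theorem SymLoc.finrank_center (h : SymLoc J l) :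
    finrank F (Subalgebra.center F A) + finrank F (cs F A) = finrank F A := by
  rw [← h.finrank_orth (cs F A), h.orth_cs]; rfl

theorem SymLoc.orth_pow_le (h : SymLoc J l) {n : ℕ} (hn : J ^ (n + 1) ≠ ⊥) :
    (bf l).orthogonal (J ^ (n + 1)) ≤ J := fun x hx => by
  obtain ⟨c, hc⟩ := h.loc x
  by_cases h0 : c = 0
  · simpa [h0] using hc
  have hu : IsUnit x := by
    have := (h.isNilpotent hc).isUnit_add_right_of_commute (u := c • (1 : A))
      (by rw [← Algebra.algebraMap_eq_smul_one]; exact (Ne.isUnit h0).map _)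
      ((Commute.one_right _).smul_right c)
    simpa using this
  obtain ⟨u, rfl⟩ := hu
  refine (hn (eq_bot_iff.2 fun w hw => h.nd w fun b => ?_)).elim
  have := mem_orth.1 hx (w * (b * u⁻¹)) (h.mul_top n (mul_mem_mul hw trivial))
  simpa [mul_assoc] using this

theorem SymLoc.two_add_le [Nontrivial A] (h : SymLoc J l) (h2 : J ^ 2 ≠ ⊥) :
    2 + finrank F J ≤ finrank F (Subalgebra.center F A) + finrank F ↥(J ^ 2) := by
  have h1 := h.finrank_orth (J ^ 2)
  have h3 : (bf l).orthogonal (J ^ 2) ⊔ span F {1} ≤ (Subalgebra.center F A).toSubmodule :=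
    sup_le (h.orth_cs ▸ LinearMap.BilinForm.orthogonal_le h.cs_le_sq)
      ((span_singleton_le_iff_mem _ _).2 (one_mem (Subalgebra.center F A)))
  have h4 := finrank_mono h3
  rw [finrank_sup_span_singleton fun h1 =>
    not_isNilpotent_one (h.isNilpotent (h.orth_pow_le h2 h1))] at h4
  have h5 := h.finrank_eq
  change finrank F ((bf l).orthogonal (J ^ 2)) + 1 ≤ finrank F (Subalgebra.center F A) at h4
  omega

theorem SymLoc.comm_of_span_one (h : SymLoc J l) (ha : a ∈ J) (hJ : J ≤ span F {a} ⊔ J ^ 2)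
    (x y : A) : x * y = y * x := by
  have h1 : ∀ n, J ^ (n + 1) ≤ span F {a ^ (n + 1)} ⊔ J ^ (n + 1 + 1) := fun n => by
    induction n with
    | zero => simpa using hJ
    | succ n ih =>
      rw [pow_succ J]
      refine (mul_le_mul' ih hJ).trans ?_
      rw [Submodule.sup_mul, Submodule.mul_sup, Submodule.mul_sup, span_mul_span, Set.singleton_mul_singleton, ← pow_succ]
      have h2 := (span_singleton_le_iff_mem _ _).2 (pow_mem_pow J ha (n + 1))
      have h3 := (span_singleton_le_iff_mem _ _).2 ha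
      refine sup_le (sup_le le_sup_left (le_sup_of_le_right ?_)) (le_sup_of_le_right (sup_le ?_ ?_))
      · exact (mul_le_mul_left h2 _).trans (pow_add J _ _).ge
      · exact (mul_le_mul_right h3 _).trans (pow_succ J _).ge
      · exact (pow_add J _ _).ge.trans (h.pow_succ_le _)
  have h2 : ∀ s : Set A, a ∈ Subalgebra.centralizer F s → ∀ x, x ∈ Subalgebra.centralizer F s :=
    fun s hs x => by
      have h3 : J ≤ (Subalgebra.centralizer F s).toSubmodule := by
        simpa using h.le_of_step 1 fun n hn => by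
          obtain ⟨n, rfl⟩ := Nat.exists_eq_add_of_le' hn
          exact (h1 n).trans (sup_le_sup_right ((span_singleton_le_iff_mem _ _).2
            (pow_mem hs _)) _)
      obtain ⟨c, hc⟩ := h.loc x
      simpa using add_mem (h3 hc) (Subalgebra.smul_mem _ (one_mem (Subalgebra.centralizer F s)) c)
  exact h2 {x} (fun _ hx => hx ▸ (h2 {a} (fun _ h => h ▸ rfl) x a rfl).symm) y x rfl

theorem eq_zero_of_rel {V : Type*} [AddCommGroup V] [Module F V] {α β δ : F} {Ra Rb La Lb : V}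
    (h1 : α • Ra = α • La) (h2 : α • Rb = β • La) (h3 : β • Ra = (β - 1) • La)
    (h4 : β • Rb = δ • La) (h5 : (β - 1) • Ra = α • Lb) (h6 : (β - 1) • Rb = β • Lb)
    (h7 : δ • Ra = (β - 1) • Lb) (h8 : δ • Rb = δ • Lb) : Ra = 0 ∧ Rb = 0 := by
  have a1 : α • Ra = 0 := by linear_combination (norm := module) α • h3 - (β - 1) • h1
  have a2 : δ • Rb = 0 := by linear_combination (norm := module) β • h8 - δ • h6
  have a3 : β • Ra = 0 := by
    linear_combination (norm := module) β • h3 - (β - 1) • h2 + α • h6 - β • h5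
  have a4 : ((β - 1) ^ 2) • Ra = 0 := by
    linear_combination (norm := module) (β - 1) • h5 - α • h7 + δ • a1
  have a5 : Ra = 0 := by linear_combination (norm := module) a4 - (β - 2) • a3
  have a6 : ((β - 1) ^ 2) • Rb = 0 := by
    linear_combination (norm := module) (β - 1) • h6 - β • h7 + (β * δ) • a5
  have a7 : (β ^ 2) • Rb = 0 := by
    linear_combination (norm := module) β • h4 - δ • h2 + α • a2
  exact ⟨a5, by linear_combination (norm := module) (2 * β + 1) • a6 + (3 - 2 * β) • a7⟩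

theorem SymLoc.cs_le_span (h : SymLoc J l) (ha : a ∈ J) (hb : b ∈ J)
    (hJ : J ≤ span F {a} ⊔ (span F {b} ⊔ J ^ 2)) : cs F A ≤ span F {a * b - b * a} ⊔ J ^ 3 :=
  h.cs_le fun x hx y hy => by
    obtain ⟨_, h1, _, h2, rfl⟩ := mem_sup.1 (hJ hx)
    obtain ⟨_, h3, x, hx', rfl⟩ := mem_sup.1 h2
    obtain ⟨_, h4, _, h5, rfl⟩ := mem_sup.1 (hJ hy)
    obtain ⟨_, h6, y, hy', rfl⟩ := mem_sup.1 h5
    obtain ⟨c, rfl⟩ := mem_span_singleton.1 h1
    obtain ⟨d, rfl⟩ := mem_span_singleton.1 h3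
    obtain ⟨c', rfl⟩ := mem_span_singleton.1 h4
    obtain ⟨d', rfl⟩ := mem_span_singleton.1 h6
    have h7 : ∀ u ∈ J, ∀ v ∈ J ^ 2, u * v - v * u ∈ J ^ 3 := fun u hu v hv =>
      sub_mem (pow_succ' J 2 ▸ mul_mem_mul hu hv) (mul_mem_mul hv hu)
    refine mem_sup.2 ⟨(c * d' - d * c') • (a * b - b * a), smul_mem _ _ (mem_span_singleton_self _),
      _, sub_mem (h7 _ hx _ hy') (h7 _ (add_mem (smul_mem _ c' ha) (smul_mem _ d' hb)) _ hx'), ?_⟩
    simp only [mul_add, add_mul, mul_smul_comm, smul_mul_assoc]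
    module

theorem SymLoc.cube_eq_bot (h : SymLoc J l) (ha : a ∈ J) (hb : b ∈ J)
    (hJ : J ≤ span F {a} ⊔ (span F {b} ⊔ J ^ 2)) (h2 : J ^ 2 ≤ span F {a * b - b * a} ⊔ J ^ 3) :
    J ^ 3 = ⊥ := by
  set c := a * b - b * a with hc
  have h1 : ∀ x ∈ J, ∀ y ∈ J, ∃ β : F, x * y - β • c ∈ J ^ 3 := fun x hx y hy => by
    obtain ⟨_, h1, w, hw, h3⟩ := mem_sup.1 (h2 (pow_two J ▸ mul_mem_mul hx hy))
    obtain ⟨β, rfl⟩ := mem_span_singleton.1 h1
    exact ⟨β, by rwa [← h3, add_sub_cancel_left]⟩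
  have h3 : ∀ {x y z : A} {β γ : F}, x ∈ J → z ∈ J → x * y - β • c ∈ J ^ 3 →
      y * z - γ • c ∈ J ^ 3 → β • (J ^ 4).mkQ (c * z) = γ • (J ^ 4).mkQ (x * c) := by
    intro x y z β γ hx hz h4 h5
    rw [← map_smul, ← map_smul, mkQ_apply, mkQ_apply, Submodule.Quotient.eq]
    convert sub_mem (pow_succ' J 3 ▸ mul_mem_mul hx h5 : _ ∈ J ^ 4)
      (mul_mem_mul h4 hz : _ ∈ J ^ 4) using 1
    simp only [mul_sub, sub_mul, mul_smul_comm, smul_mul_assoc, mul_assoc]
    abel
  obtain ⟨α, haa⟩ := h1 a ha a ha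
  obtain ⟨β, hab⟩ := h1 a ha b hb
  obtain ⟨δ, hbb⟩ := h1 b hb b hb
  have hba : b * a - (β - 1) • c ∈ J ^ 3 := by
    convert hab using 1
    rw [hc]; module
  obtain ⟨h4, h5⟩ := eq_zero_of_rel (h3 ha ha haa haa) (h3 ha hb haa hab) (h3 ha ha hab hba)
    (h3 ha hb hab hbb) (h3 hb ha hba haa) (h3 hb hb hba hab) (h3 hb ha hbb hba) (h3 hb hb hbb hbb)
  rw [mkQ_apply, Submodule.Quotient.mk_eq_zero] at h4 h5
  have h6 : span F {c} ≤ J ^ 2 := (span_singleton_le_iff_mem _ _).2 (h.cs_le_sq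
    (commutator_mem_cs a b))
  refine h.eq_bot 3 (((pow_succ J 2).le.trans (mul_le_mul_left h2 J)).trans ?_)
  rw [Submodule.sup_mul, ← pow_succ]
  refine sup_le ((mul_le_mul_right hJ _).trans ?_) le_rfl
  rw [Submodule.mul_sup, Submodule.mul_sup, span_mul_span, span_mul_span, Set.singleton_mul_singleton,
    Set.singleton_mul_singleton]
  exact sup_le ((span_singleton_le_iff_mem _ _).2 h4) (sup_le
    ((span_singleton_le_iff_mem _ _).2 h5) ((mul_le_mul_left h6 _).trans (pow_add J 2 2).ge))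

theorem SymLoc.cs_eq_bot (h : SymLoc J l) (h3 : J ^ 3 = ⊥) : cs F A = ⊥ :=
  eq_bot_iff.2 fun x hx => h.nd x fun b => by
    obtain ⟨c, hc⟩ := h.loc b
    have : x * (b - c • 1) = 0 := (mem_bot F).1 (h3 ▸ mul_mem_mul (h.cs_le_sq hx) hc)
    rw [mul_sub, sub_eq_zero] at this
    rw [this, mul_smul_comm, mul_one, map_smul, h.map_cs hx, smul_zero]

theorem SymLoc.cs_lt (h : SymLoc J l) {n : ℕ} (hn : J ^ (n + 1) ≠ ⊥) :
    cs F A < cs F A ⊔ J ^ (n + 1) :=
  left_lt_sup.2 fun h1 => hn (eq_bot_iff.2 fun w hw => h.nd w fun _ =>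
    h.map_cs (h1 (h.mul_top n (mul_mem_mul hw trivial))))

theorem SymLoc.comm_of_le_four (h : SymLoc J l) (h4 : finrank F (Subalgebra.center F A) ≤ 4)
    (x y : A) : x * y = y * x := by
  nontriviality A
  by_cases h3 : J ^ 3 = ⊥
  · exact comm_of_cs (h.cs_eq_bot h3) x y
  have h2 : J ^ 2 ≠ ⊥ := fun h2 => h3 (by rw [pow_succ, h2, bot_mul])
  by_cases h1 : finrank F J ≤ finrank F ↥(J ^ 2) + 1
  · obtain ⟨a, ha, hJ⟩ := exists_span_one (h.pow_le 1) h1
    exact h.comm_of_span_one ha hJ x y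
  have h5 := h.two_add_le h2
  obtain ⟨a, ha, b, hb, hJ⟩ := exists_span_two (W := J ^ 2) (h.pow_le 1) (by omega)
  have h6 : _ < finrank F ↥(cs F A ⊔ J ^ 3) := finrank_lt_finrank_of_lt (h.cs_lt h3)
  have h7 := h.finrank_center
  have h8 := h.finrank_eq
  have h9 : cs F A ⊔ J ^ 3 = J ^ 2 := eq_of_le_of_finrank_le (sup_le h.cs_le_sq (h.pow_succ_le 1)) (by omega)
  exact (h3 (h.cube_eq_bot ha hb hJ (h9.ge.trans (sup_le (h.cs_le_span ha hb hJ)
    le_sup_right)))).elim

end gen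

section corner
variable (F : Type*) [Field F] {R : Type*} [Ring R] [Algebra F R] {i : R}

/-- The corner algebra `iRi`. -/
def Cor (_ : IsIdempotentElem i) : Type _ := cor F i

variable (hi : IsIdempotentElem i)

instance Cor.instRing : Ring (Cor F hi) :=
  { (inferInstance : AddCommGroup (cor F i)) with
    mul a b := ⟨a.1 * b.1, by rw [← mul_assoc, a.2.1], by rw [mul_assoc, b.2.2]⟩
    one := ⟨i, hi.eq, hi.eq⟩
    mul_assoc a b c := Subtype.ext (mul_assoc a.1 b.1 c.1)
    one_mul a := Subtype.ext a.2.1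
    mul_one a := Subtype.ext a.2.2
    left_distrib a b c := Subtype.ext (mul_add a.1 b.1 c.1)
    right_distrib a b c := Subtype.ext (add_mul a.1 b.1 c.1)
    zero_mul a := Subtype.ext (zero_mul a.1)
    mul_zero a := Subtype.ext (mul_zero a.1) }

instance Cor.instModule : Module F (Cor F hi) := inferInstanceAs (Module F (cor F i))

instance Cor.instAlgebra : Algebra F (Cor F hi) :=
  Algebra.ofModule (fun c a b => Subtype.ext (smul_mul_assoc c a.1 b.1))
    fun c a b => Subtype.ext (mul_smul_comm c a.1 b.1)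

instance Cor.instFinite [Module.Finite F R] : Module.Finite F (Cor F hi) :=
  inferInstanceAs (Module.Finite F (cor F i))

/-- The inclusion of the corner algebra. -/
def Cor.val : Cor F hi →ₗ[F] R := (cor F i).subtype

variable {F hi}

theorem Cor.val_mul (a b : Cor F hi) : Cor.val F hi (a * b) = Cor.val F hi a * Cor.val F hi b := rfl

theorem Cor.val_one : Cor.val F hi 1 = i := rfl

theorem Cor.val_injective : Function.Injective (Cor.val F hi) := Subtype.val_injective

theorem Cor.isNilpotent {a : Cor F hi} (h : IsNilpotent (Cor.val F hi a)) : IsNilpotent a := by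
  obtain ⟨n, hn⟩ := h
  have : ∀ n, Cor.val F hi (a ^ (n + 1)) = Cor.val F hi a ^ (n + 1) := fun n => by
    induction n with
    | zero => simp
    | succ n ih => rw [pow_succ, Cor.val_mul, ih, ← pow_succ]
  exact ⟨n + 1, Cor.val_injective (by rw [this, pow_succ, hn, zero_mul, map_zero])⟩

theorem IsLoc.exists_symLoc [Module.Finite F R] [IsAlgClosed F] (hi : IsLoc i) {l : R →ₗ[F] F}
    (h1 : ∀ a b, l (a * b) = l (b * a)) (h2 : ∀ a, (∀ b, l (a * b) = 0) → a = 0) :
    ∃ J, SymLoc J (l ∘ₗ Cor.val F hi.idem) := by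
  have : IsArtinianRing (Cor F hi.idem) := IsArtinianRing.of_finite F _
  obtain ⟨n, hn⟩ := IsArtinianRing.isNilpotent_jacobson_bot (R := Cor F hi.idem)
  refine ⟨(Ideal.jacobson ⊥).restrictScalars F, fun a => ?_, ?_, ⟨n + 1, ?_⟩,
    fun a b => h1 _ _, fun a ha => Cor.val_injective (h2 _ fun b => ?_)⟩
  · obtain ⟨c, hc⟩ := hi.exists_nil F a.1
    rw [a.2.1, a.2.2] at hc
    refine ⟨c, Ideal.mem_jacobson_iff.2 fun y => ?_⟩
    have h3 : IsNilpotent (y * (a - c • 1)) := Cor.isNilpotent (by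
      have := hi.nil_mul_left F (a - c • (1 : Cor F hi.idem)).2.1 (a - c • (1 : Cor F hi.idem)).2.2
        hc y.1
      rwa [y.2.1] at this)
    obtain ⟨u, hu⟩ := h3.isUnit_add_one
    exact ⟨↑u⁻¹, by rw [mul_assoc, ← mul_add_one, ← hu]; simp⟩
  · exact Submodule.mul_le.2 fun a _ b hb => Ideal.mul_mem_left _ a hb
  · rw [← restrictScalars_pow n.succ_ne_zero, Submodule.pow_succ, hn]
    simp
  · have := ha ⟨i * b * i, by rw [← mul_assoc, ← mul_assoc, hi.idem.eq],
      by rw [mul_assoc, hi.idem.eq]⟩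
    change l (a.1 * (i * b * i)) = 0 at this
    rwa [← mul_assoc, h1, ← mul_assoc a.1, a.2.2, ← mul_assoc, a.2.1] at this

theorem OnePt.finrank_center_le [Module.Finite F R] {b : R} (h : OnePt b i) {Z : Submodule F R}
    (hZ : ∀ z, (∀ x, z * x = x * z) → b * z = z → z ∈ Z) :
    finrank F (Subalgebra.center F (Cor F h.loc.idem)) ≤ finrank F Z := by
  refine (LinearMap.finrank_le_finrank_of_injective (f := LinearMap.codRestrict
    (Z.map (LinearMap.mulRight F i)) (Cor.val F h.loc.idem ∘ₗ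
      (Subalgebra.center F (Cor F h.loc.idem)).val.toLinearMap) fun w => ?_) fun a b hab =>
    Subtype.ext (Cor.val_injective (Subtype.ext_iff.1 hab :))).trans (finrank_map_le _ _)
  obtain ⟨z, h1, h2, h3⟩ := h.exists_central_of_comm F w.1.2.1 w.1.2.2 fun x =>
    congrArg Subtype.val (Subalgebra.mem_center_iff.1 w.2 ⟨i * x * i,
      by rw [← mul_assoc, ← mul_assoc, h.loc.idem.eq], by rw [mul_assoc, h.loc.idem.eq]⟩).symm
  exact ⟨z, hZ z h1 h2, h3⟩

end corner

section block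
variable {p : ℕ} [hp : Fact p.Prime] {M : Ideal AlgInt} [PMod p M] {G : Type*} [Group G]
  [Fintype G]
variable {i : (F M)[G]} {B : Set (IrrCharacter G)}

theorem card_le_of_rank_one (hB : IsPBlock M B) (hl : blockRank p B = 1) :
    Nat.card B ≤ p ^ blockDefect p B := by
  classical
  obtain ⟨φ, d, -, -, h1, h2⟩ := rank_one hB hl
  rw [← h2, finsum_mem_eq_filter, card_eq_filter, Finset.card_eq_sum_ones]
  refine Finset.sum_le_sum fun χ hχ => Nat.one_le_pow _ _ (Nat.pos_of_ne_zero fun h => ?_)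
  simpa [h, rho_apply_one, χ.2.apply_one_ne_zero] using congrFun (h1 χ (Finset.mem_filter.1 hχ).2) 1

/-- The basic algebra of a block with one point. -/
theorem OnePt.exists_symLoc (hB : IsPBlock M B) (h : OnePt (eB M B) i) :
    (∃ (J : Submodule (F M) (Cor (F M) h.loc.idem)) (l : _), SymLoc J l) ∧
      finrank (F M) (Subalgebra.center (F M) (Cor (F M) h.loc.idem)) ≤ Nat.card B ∧
      finrank (F M) (Cor (F M) h.loc.idem) = p ^ blockDefect p B := by
  obtain ⟨J, hJ⟩ := h.loc.exists_symLoc (F := F M)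
    (l := Finsupp.lapply 1 ∘ₗ (coeffLinearEquiv (F M)).toLinearMap) coeff_one_mul_comm
    fun _ => eq_zero_of_coeff_one
  exact ⟨⟨J, _, hJ⟩, finrank_Zb_eB (IsPBlock.isBlockUnion hB) ▸ h.finrank_center_le fun z h1 h2 =>
    ⟨Subalgebra.mem_center_iff.2 fun x => (h1 x).symm, h2⟩, h.finrank_cor hB⟩

theorem card_eq_of_le_four (hB : IsPBlock M B) (hl : blockRank p B = 1) (hk : Nat.card B ≤ 4) :
    Nat.card B = p ^ blockDefect p B := by
  obtain ⟨i, hi⟩ := exists_onePt (IsPBlock.isBlockUnion hB) hl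
  obtain ⟨⟨J, l, h1⟩, h2, h3⟩ := hi.exists_symLoc hB
  refine (card_le_of_rank_one hB hl).antisymm (le_trans ?_ h2)
  rw [← h3, (eq_top_iff.2 fun x _ => Subalgebra.mem_center_iff.2 fun y =>
    h1.comm_of_le_four (h2.trans hk) y x : Subalgebra.center _ _ = ⊤)]
  exact (finrank_top _ _).ge

end block

end Cfsg.Agent.BMod
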