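import Cfsg.Agent.BMod.KW

/-!
Blocks with two Brauer characters: reduced dual bases (`exists_reduced`) and Olsson's bound
`IsSub.card_le_of_rank_two`.
-/

set_option linter.unusedSectionVars false

namespace Cfsg.Agent.BMod

open MonoidAlgebra Transfer Block Cfsg.Agent.Char CharDeep Module
open scoped ComplexConjugate

variable {p : ℕ} [hp : Fact p.Prime] {M : Ideal AlgInt} [PMod p M]

theorem binary_form {q a c β w x y : ℤ} (q0 : 0 < q) (h0 : 0 ≤ β) (h1 : 2 * β ≤ a) (h2 : a ≤ c)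
    (e1 : a * w + β * y = q) (e2 : a * y + β * x = 0) (e3 : β * w + c * y = 0)
    (e4 : β * y + c * x = q) (h : q + β < a + c) : y = 0 ∧ x = 1 := by
  have a0 : 0 < a := lt_of_le_of_ne (by omega) fun a0 => by
    rw [← a0, show β = 0 by omega] at e1
    omega
  have d0 : 0 < a * c - β ^ 2 := by nlinarith
  have x0 : 0 < x := pos_of_mul_pos_left (b := a * c - β ^ 2)
    (by rw [show x * (a * c - β ^ 2) = q * a by linear_combination a * e4 - β * e2]; positivity) d0.le
  have y0 : y ≤ 0 := by nlinarith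
  have h3 : -2 * y ≤ x := by nlinarith
  have h4 : x ≤ w := by nlinarith
  have h5 : a * (w * x - y ^ 2) = x * q := by linear_combination x * e1 - y * e2
  have h6 : 0 < w * x - y ^ 2 := pos_of_mul_pos_right (by rw [h5]; positivity) a0.le
  have h7 : (a + c - β) * (w * x - y ^ 2) = q * (x + w + y) := by
    linear_combination h5 + w * e4 - y * e3 - w * e2 + y * e1
  have h8 : w * x - y ^ 2 < x + w + y := lt_of_mul_lt_mul_left (a := q) (by nlinarith) q0.le
  have h9 : y = 0 := by_contra fun h9 => by nlinarith [show y ≤ -1 by omega]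
  subst h9
  exact ⟨rfl, by_contra fun h9 => by nlinarith [show 2 ≤ x by omega]⟩

section dual
variable {H : Type*} [Group H] [Fintype H] {b : Set (IrrCharacter H)} {η η' : H → ℂ}

theorem Dual.ctr_eq₂ {ι : Type*} [Fintype ι] [DecidableEq ι] {Φ θ : ι → H → ℂ} (h : Dual p b Φ θ)
    (hη : blockPart b η = η) (hη' : blockPart b η' = η') : ctr p η η' =
      ∑ i, ∑ j, classInner η (Φ i) * conj (classInner η' (Φ j)) * ctr p (θ i) (θ j) := by
  rw [h.ctr_eq hη]
  refine Finset.sum_congr rfl fun i _ => ?_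
  rw [← conj_ctr, h.ctr_eq hη', map_sum, Finset.mul_sum]
  simp only [map_mul, conj_ctr, mul_assoc]

variable {Φ θ : Fin 2 → H → ℂ}

theorem Dual.swap (h : Dual p b Φ θ) : Dual p b ![Φ 1, Φ 0] ![θ 1, θ 0] :=
  ⟨by simp [Fin.forall_fin_two, h.proj], by simp [Fin.forall_fin_two, h.gen],
    by simp [Fin.forall_fin_two, h.blk], by simp [Fin.forall_fin_two, h.dual],
    fun η hη h1 => h.det η hη (Fin.forall_fin_two.2 ⟨h1 1, h1 0⟩)⟩

theorem Dual.neg (h : Dual p b Φ θ) : Dual p b ![Φ 0, -Φ 1] ![θ 0, -θ 1] :=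
  ⟨Fin.forall_fin_two.2 ⟨h.proj 0, by simpa using proj_zero.sub (h.proj 1)⟩,
    Fin.forall_fin_two.2 ⟨h.gen 0, IsGeneralizedCharacter.neg (h.gen 1)⟩,
    Fin.forall_fin_two.2 ⟨h.blk 0, by simpa [h.blk, blockPart_zero] using blockPart_sub b 0 (θ 1)⟩,
    by simp [Fin.forall_fin_two, h.dual, classInner_neg_left, classInner_neg_right],
    fun η hη h1 => h.det η hη (Fin.forall_fin_two.2
      ⟨h1 0, by simpa [classInner_neg_right] using h1 1⟩)⟩

theorem Dual.sub (h : Dual p b Φ θ) : Dual p b ![Φ 0, Φ 1 - Φ 0] ![θ 0 + θ 1, θ 1] :=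
  ⟨Fin.forall_fin_two.2 ⟨h.proj 0, (h.proj 1).sub (h.proj 0)⟩,
    Fin.forall_fin_two.2 ⟨IsGeneralizedCharacter.add (h.gen 0) (h.gen 1), h.gen 1⟩,
    Fin.forall_fin_two.2 ⟨by simp [h.blk, blockPart_add], h.blk 1⟩,
    by simp [Fin.forall_fin_two, h.dual, classInner_add_left, classInner_sub_right],
    fun η hη h1 => h.det η hη (Fin.forall_fin_two.2 ⟨h1 0, by
      simpa [classInner_sub_right, show classInner η (Φ 0) = 0 from h1 0] using h1 1⟩)⟩

theorem Dual.comm (h : Dual p b Φ θ) (i j : Fin 2) :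
    classInner (Φ i) (Φ j) = classInner (Φ j) (Φ i) :=
  IsGeneralizedCharacter.classInner_comm (h.proj i).gen (h.proj j).gen

theorem exists_reduced (hb : IsBlockUnion M b) (hl : blockRank p b = 2) :
    ∃ (Φ θ : Fin 2 → H → ℂ) (a c β : ℕ), Dual p b Φ θ ∧ classInner (Φ 0) (Φ 0) = a ∧
      classInner (Φ 1) (Φ 1) = c ∧ classInner (Φ 0) (Φ 1) = β ∧ 2 * β ≤ a ∧ a ≤ c := by
  classical
  have ex : ∃ n : ℕ, ∃ Φ θ : Fin 2 → H → ℂ, Dual p b Φ θ ∧
      classInner (Φ 0) (Φ 0) + classInner (Φ 1) (Φ 1) = n := by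
    obtain ⟨Φ, θ, h⟩ := exists_dual hb hl
    obtain ⟨a, ha⟩ := (h.proj 0).exists_nat
    obtain ⟨c, hc⟩ := (h.proj 1).exists_nat
    exact ⟨a + c, Φ, θ, h, by simp [ha, hc]⟩
  obtain ⟨Φ, θ, h, hn⟩ := Nat.find_spec ex
  obtain ⟨a, ha⟩ := (h.proj 0).exists_nat
  obtain ⟨c, hc⟩ := (h.proj 1).exists_nat
  obtain ⟨β, hβ⟩ := IsGeneralizedCharacter.exists_int_classInner (h.proj 0).gen (h.proj 1).gen
  wlog h1 : a ≤ c generalizing Φ θ a c
  · exact this _ _ h.swap (by simpa [add_comm] using hn) c hc a ha (by simpa [h.comm 1 0] using hβ)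
      (le_of_not_ge h1)
  wlog h2 : 0 ≤ β generalizing Φ θ β
  · exact this (-β) _ _ h.neg (by simpa [classInner_neg_left, classInner_neg_right] using hn) ha
      (by simpa [classInner_neg_left, classInner_neg_right] using hc)
      (by simpa [classInner_neg_right] using hβ) (by omega)
  lift β to ℕ using h2
  refine ⟨Φ, θ, a, c, β, h, ha, hc, hβ, ?_, h1⟩
  obtain ⟨c', hc'⟩ := (h.sub.proj 1).exists_nat
  have h3 := Nat.find_min' ex ⟨_, _, h.sub, (congrArg₂ _ ha hc').trans (Nat.cast_add a c').symm⟩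
  simp only [Matrix.cons_val_one, Matrix.cons_val_zero, classInner_sub_left, classInner_sub_right,
    h.comm 1 0, ha, hc, hβ] at hc' hn
  have h4 : (c' + 2 * β : ℕ) = a + c := by
    refine Nat.cast_injective (R := ℂ) ?_
    push_cast at hc' ⊢
    linear_combination -hc'
  norm_cast at hn
  omega

theorem Dual.kw (h : Dual p b Φ θ) {a c β N : ℕ} (ha : classInner (Φ 0) (Φ 0) = a)
    (hc : classInner (Φ 1) (Φ 1) = c) (hβ : classInner (Φ 0) (Φ 1) = β) (hN : a + c ≤ N + β) :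
    KW p b N := by
  classical
  refine ⟨3, ![0, Φ 0, Φ 1] ∘ (· + 1) - ![0, Φ 0, Φ 1], ?_, fun η hη h0 => ?_, ?_⟩
  · simpa [Fin.forall_fin_succ, h.proj, (h.proj 1).sub (h.proj 0)] using proj_zero.sub (h.proj 1)
  · simp only [Pi.sub_apply, classInner_sub_right]
    refine two_le_card_ne (x := fun j => classInner η (![0, Φ 0, Φ 1] j)) (by_contra fun h1 =>
      h0 (h.det η hη (Fin.forall_fin_two.2 ⟨?_, ?_⟩)))
    · simpa [classInner_zero_right] using not_exists.1 h1 1
    · simpa [classInner_zero_right] using not_exists.1 h1 2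
  · simp [Fin.sum_univ_three, classInner_sub_left, classInner_sub_right,
      classInner_zero_left, classInner_zero_right, h.comm 1 0, ha, hc, hβ]
    have : (a + c : ℝ) ≤ N + β := by exact_mod_cast hN
    linarith

end dual

variable {G : Type*} [Group G] [Finite G] {H : Subgroup G} [Fintype H] {z : H}
  {b : Set (IrrCharacter H)} {B : Set (IrrCharacter G)} {χ ψ : IrrCharacter G}

theorem IsSub.eq_zero_of_gens (h : IsSub p H z) {t : Subgroup.center H → ℂ}
    (ht : IsGeneralizedCharacter _ t) {u v : Subgroup.center H} (hu : u ∈ gens z) (hv : v ∈ gens z)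
    (h0 : t u = 0) : t v = 0 := by
  have h1 := (mem_gens.1 hu).trans (mem_gens.1 hv).symm
  obtain ⟨m, hm⟩ := (mem_powers_iff_mem_zpowers.2 (h1 ▸ Subgroup.mem_zpowers _) :
    ((v : H) : G) ∈ Submonoid.powers ((u : H) : G))
  obtain rfl : u ^ m = v := Subtype.ext (Subtype.ext hm)
  rw [IsGeneralizedCharacter.apply_pow_eq_of_rat ht (q := 0) (by simpa using h0), h0]
  rw [← Subgroup.orderOf_coe, ← Subgroup.orderOf_coe]
  exact mem_zpowers_pow_iff.1 (by simpa using h1 ▸ Subgroup.mem_zpowers ((u : H) : G))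

theorem IsSub.card_le_inner (h : IsSub p H z) {Ψ : H → ℂ} (hΨ : Proj p b Ψ)
    (S : Finset (IrrCharacter G)) (k : ℕ) (hS : ∀ χ ∈ S, ∀ u ∈ gens z,
      classInner (sh (u : H) χ) Ψ ≠ 0 ∧ conj (classInner (sh (u : H) χ) Ψ) / p ^ k ∈ O M) :
    (S.card * p ^ (k * 2) : ℝ) ≤ (classInner Ψ Ψ).re := by
  have h1 := Finset.card_nsmul_le_sum S _ _ fun χ hχ => card_mul_pow_le_sum_norm (M := M)
    (IsGeneralizedCharacter.conj (isGen_inner_sh (irrG χ) hΨ.gen)) (gens z) pow_mem_gens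
    (fun u hu => by simpa using (hS χ hχ u hu).1) (fun u hu => (hS χ hχ u hu).2) 2
  have h2 := h1.trans (Finset.sum_le_sum_of_subset_of_nonneg (Finset.subset_univ S)
    fun _ _ _ => by positivity)
  simp only [Complex.norm_conj] at h2
  rw [Finset.sum_comm, Finset.sum_congr rfl fun u hu =>
    (h.of_zpowers_eq (mem_gens.1 hu)).sum_inner_sq hΨ, Finset.sum_const, nsmul_eq_mul,
    nsmul_eq_mul, mul_left_comm] at h2
  exact le_of_mul_le_mul_left h2 (by exact_mod_cast h.gens_pos)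

theorem IsSub.card_le_of_rank_two (h : IsSub p H z) (hind : IsInducedBlock M H b B)
    (hd : blockDefect p b = blockDefect p B) (hl : blockRank p b = 2) :
    Nat.card B ≤ p ^ blockDefect p B := by
  classical
  obtain ⟨Φ, θ, a, c, β, hD, ha, hc, hβ, h1, h2⟩ :=
    exists_reduced (IsPBlock.isBlockUnion hind.1) hl
  choose n hn using fun i j => exists_int_pow_ctr hind.1 (hD.gen i) (hD.blk i) (hD.gen j)
  rw [← hd]
  set q := p ^ blockDefect p b with hq
  have q0 : 0 < q := pow_pos hp.out.pos _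
  have e : ∀ i j, ∑ k, classInner (Φ i) (Φ k) * n k j = if i = j then (q : ℂ) else 0 := fun i j => by
    simp only [← hn, mul_left_comm _ (_ ^ _), ← Finset.mul_sum, hD.sum_eq]
    simp [hq]
  have e00 := e 0 0
  have e01 := e 0 1
  have e10 := e 1 0
  have e11 := e 1 1
  simp only [Fin.sum_univ_two, hD.comm 1 0, ha, hc, hβ, if_true, zero_ne_one, one_ne_zero,
    if_false] at e00 e01 e10 e11
  norm_cast at e00 e01 e10 e11
  by_cases h3 : a + c ≤ q + β
  · exact (hD.kw ha hc hβ h3).card_le_of_major h hind hd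
  have s : n 1 0 = n 0 1 := Int.cast_injective (α := ℂ) (by
    rw [← hn, ← hn, ctr_comm (hD.gen 1) (hD.gen 0)])
  rw [s] at e00 e10
  obtain ⟨h4, h5⟩ := binary_form (by exact_mod_cast q0) (by positivity) (by exact_mod_cast h1)
    (by exact_mod_cast h2) e00 e01 e10 e11 (by exact_mod_cast not_le.1 h3)
  have hmm : ∀ (u : H) (χ ψ : IrrCharacter G), (p : ℂ) ^ blockDefect p b * mm p u b χ ψ =
      n 0 0 * (classInner (sh u χ) (Φ 0) * conj (classInner (sh u ψ) (Φ 0))) +
      classInner (sh u χ) (Φ 1) * conj (classInner (sh u ψ) (Φ 1)) := fun u χ ψ => by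
    rw [mm, hD.ctr_eq₂ (blockPart_blockPart_self _ _) (blockPart_blockPart_self _ _)]
    simp only [mul_add, mul_left_comm (_ ^ _ : ℂ), hn, Fin.sum_univ_two, s, h4, h5,
      (hD.proj _).inner_blockPart]
    push_cast
    ring
  have h6 : c = q := by
    rw [h4, h5] at e11
    simpa using e11
  by_cases h7 : ∀ χ ∈ B, ∀ u ∈ gens z, classInner (sh (u : H) χ.1) (Φ 1) ≠ 0
  · have := h.card_le_inner (M := M) (hD.proj 1) (Finset.univ.filter (· ∈ B)) 0 fun χ hχ u hu =>
      ⟨h7 χ (Finset.mem_filter.1 hχ).2 u hu, by simpa using (gen_mem_O (M := M)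
        (IsGeneralizedCharacter.conj (isGen_inner_sh (irrG χ) (hD.proj 1).gen)) u)⟩
    rw [hc, h6, ← card_eq_filter] at this
    simpa using this
  push Not at h7
  obtain ⟨ψ, hψ, v, hv, h7⟩ := h7
  obtain ⟨χ₀, hχ₀, h0⟩ := exists_height_zero p (IsPBlock.nonempty hind.2.1)
  obtain ⟨ξ, hξ⟩ := IsPBlock.nonempty hind.1
  have h8 : red M (n 0 0) = 0 := by
    have r := fun i j => red_pow_mul_ctr_ne_zero_iff hind.1 hξ (hD.gen i) (hD.blk i) (hD.gen j)
    simp only [hn] at r
    by_contra h8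
    exact (r 0 1).2 ⟨((r 0 0).1 h8).1, ((r 1 1).1 (by simp [h5])).1⟩ (by simp [h4])
  have hO : ∀ (u : Subgroup.center H) (χ : IrrCharacter G) i, classInner (sh (u : H) χ.1) (Φ i) ∈ O M ∧
      conj (classInner (sh (u : H) χ.1) (Φ i)) ∈ O M := fun u χ i =>
    ⟨gen_mem_O (isGen_inner_sh (irrG χ) (hD.proj i).gen) u,
      gen_mem_O (IsGeneralizedCharacter.conj (isGen_inner_sh (irrG χ) (hD.proj i).gen)) u⟩
  let P : IrrCharacter G → Prop := fun χ => classInner (sh ((v : H)) χ.1) (Φ 0) = 0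
  have h9 := h.card_le_inner (M := M) (hD.proj 0) ((Finset.univ.filter (· ∈ B)).filter (¬ P ·)) 0
    fun χ hχ u hu => ⟨fun h9 => (Finset.mem_filter.1 hχ).2 (h.eq_zero_of_gens
      (isGen_inner_sh (irrG χ) (hD.proj 0).gen) hu hv h9), by simpa using (hO u χ 0).2⟩
  have h10 := h.card_le_inner (M := M) (hD.proj 1) ((Finset.univ.filter (· ∈ B)).filter P) 1
    fun χ hχ u hu => by
      obtain ⟨hχ, hP⟩ := Finset.mem_filter.1 hχ
      replace hχ := (Finset.mem_filter.1 hχ).2
      have hu' := h.of_zpowers_eq (mem_gens.1 hu)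
      have h10 := h.eq_zero_of_gens (isGen_inner_sh (irrG χ) (hD.proj 0).gen) hv hu hP
      have h11 : blockHeight p B χ.1 ≠ 0 := fun h11 => (h.of_zpowers_eq
        (mem_gens.1 hv)).mm_ne_zero_of_major hind hd hχ h11 hψ (by
          simpa [show classInner _ _ = 0 from hP, h7, hp.out.ne_zero] using hmm v χ ψ)
      obtain ⟨w, h12, h13, -⟩ := hu'.exists_mm_major hind hd hχ₀ hχ
      have h14 := (hu'.red_mm_ne_zero_iff hind χ₀ χ₀).2 ⟨⟨hχ₀, h0⟩, hχ₀, h0⟩
      rw [hmm, red_add (mul_mem (intCast_mem _ _) (mul_mem (hO ..).1 (hO ..).2))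
        (mul_mem (hO ..).1 (hO ..).2), red_mul (intCast_mem _ _) (mul_mem (hO ..).1 (hO ..).2), h8,
        zero_mul, zero_add, red_mul (hO ..).1 (hO ..).2] at h14
      rw [← hd, hmm, h10, map_zero, mul_zero, mul_zero, zero_add] at h13
      have h15 := left_ne_zero_of_mul h14
      refine ⟨fun h16 => hu'.mm_ne_zero_of_major hind hd hχ₀ h0 hχ (by
        simpa [h10, h16, hp.out.ne_zero] using hmm u χ₀ χ), ?_⟩
      obtain ⟨j, hj⟩ := Nat.exists_eq_succ_of_ne_zero h11
      convert mul_mem (mul_mem (pow_mem (natCast_mem (O M) p) j) h12) (inv_mem_O h15) using 1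
      have := ne_zero_of_red_ne_zero h15
      have := natCast_p_ne_zero (p := p) M
      field_simp
      rw [mul_comm, h13, hj, pow_succ']
  rw [card_eq_filter, ← Finset.card_filter_add_card_filter_not P]
  rw [hc, h6] at h10
  rw [ha] at h9
  simp only [Complex.natCast_re] at h9 h10
  norm_cast at h9 h10
  obtain ⟨m, hm⟩ := (CharP.intCast_eq_zero_iff (F M) p _).1 (by simpa using h8)
  rw [h4, hm] at e00
  have h11 : a * p ≤ q := Nat.le_of_dvd q0 (Int.natCast_dvd_natCast.1 ⟨m, by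
    push_cast; linarith⟩)
  have h12 := hp.out.two_le
  refine Nat.le_of_mul_le_mul_right (c := p ^ 2) ?_ (by positivity)
  simp only [zero_mul, pow_zero, mul_one, one_mul] at h9 h10
  nlinarith [Nat.mul_le_mul_right (p ^ 2) h9, Nat.mul_le_mul_right p h11,
    Nat.mul_le_mul_left q (show p + 1 ≤ p ^ 2 by nlinarith)]

end Cfsg.Agent.BMod
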